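import Mathlib
import Cfsg.Agent.Lib.Helper48.S4415.RedDefs

/-!
# S4415, sub-package [R-SETUPG] of [RED]: the group-theoretic fields of `Setup` inside `R ⊔ ⟨b⟩`
-/

set_option autoImplicit false

namespace Cfsg.Agent.Lib.Helper20.S4415

open Cfsg.Agent.Lib.Helper78.S4415 Cfsg.Agent.Lib.Helper48.S4415

universe u

theorem pkgSetupG : PkgSetupG.{u} := by
  intro S _ _ _ R b Q hbH hnorm hcop hb3 hcomm hQR hQ4 hQ2 hQn hQm
  obtain ⟨H, hH⟩ : ∃ H : Subgroup S, H = R ⊔ Subgroup.zpowers b := ⟨_, rfl⟩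
  have hRH : R ≤ R ⊔ Subgroup.zpowers b := le_sup_left
  have hQH : Q ≤ R ⊔ Subgroup.zpowers b := le_trans hQR hRH
  have hinj : Function.Injective (Subgroup.map (R ⊔ Subgroup.zpowers b).subtype) :=
    Subgroup.map_injective (Subgroup.subtype_injective _)
  have hmapR : (R.subgroupOf (R ⊔ Subgroup.zpowers b)).map (R ⊔ Subgroup.zpowers b).subtype = R :=
    Subgroup.map_subgroupOf_eq_of_le hRH
  have hmapB : (Subgroup.zpowers (⟨b, hbH⟩ : ↥(R ⊔ Subgroup.zpowers b))).map
      (R ⊔ Subgroup.zpowers b).subtype = Subgroup.zpowers b := by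
    rw [MonoidHom.map_zpowers]
    rfl
  refine
    { normal := ?_
      cop := ?_
      solv := inferInstance
      b3 := ?_
      gen := ?_
      comm := ?_
      QR := ?_
      Q4 := ?_
      Q2 := ?_
      Qnorm := ?_
      Qmove := ?_ }
  · constructor
    intro n hn g
    rw [Subgroup.mem_subgroupOf] at hn ⊢
    have := hnorm (g : S) g.2 (n : S) hn
    simpa using this
  · have : Nat.card ↥(R.subgroupOf (R ⊔ Subgroup.zpowers b)) = Nat.card ↥R :=
      Nat.card_congr (Subgroup.subgroupOfEquivOfLe hRH).toEquiv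
    rw [this]
    exact hcop
  · apply Subtype.ext
    simpa using hb3
  · apply hinj
    rw [Subgroup.map_sup, hmapR, hmapB, ← MonoidHom.range_eq_map, Subgroup.range_subtype]
  · apply hinj
    rw [Subgroup.map_commutator, hmapR, hmapB, hcomm]
  · intro x hx
    rw [Subgroup.mem_subgroupOf] at hx ⊢
    exact hQR hx
  · have : Nat.card ↥(Q.subgroupOf (R ⊔ Subgroup.zpowers b)) = Nat.card ↥Q :=
      Nat.card_congr (Subgroup.subgroupOfEquivOfLe hQH).toEquiv
    rw [this]
    exact hQ4
  · intro q hq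
    rw [Subgroup.mem_subgroupOf] at hq
    apply Subtype.ext
    simpa using hQ2 (q : S) hq
  · intro q hq
    rw [Subgroup.mem_subgroupOf] at hq ⊢
    simpa using hQn (q : S) hq
  · obtain ⟨q, hq, hne⟩ := hQm
    refine ⟨⟨q, hQH hq⟩, ?_, ?_⟩
    · rw [Subgroup.mem_subgroupOf]
      exact hq
    · intro h
      apply hne
      have := congrArg Subtype.val h
      simpa using this

end Cfsg.Agent.Lib.Helper20.S4415
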