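import Mathlib
import Cfsg.Agent.Lib.Helper48.S4415.RedDefs
import Cfsg.Agent.Lib.Helper6.TransvGenM

/-!
# S4415, sub-package [R-TRANS] of [RED]: transport of the conclusion from a subgroup of `↥H`
to its image in `S`
-/

set_option autoImplicit false

namespace Cfsg.Agent.Lib.Helper20.S4415

open Cfsg.Agent.Lib.Helper78.S4415 Cfsg.Agent.Lib.Helper48.S4415

universe u

theorem elemAb_map {S : Type u} [Group S] (H : Subgroup S) (A : Subgroup ↥H)
    (hA : Cfsg.IsElementaryAbelian 2 A) : Cfsg.IsElementaryAbelian 2 (A.map H.subtype) := by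
  obtain ⟨hc, he⟩ := hA
  refine ⟨⟨⟨?_⟩⟩, ?_⟩
  · rintro ⟨x, hx⟩ ⟨y, hy⟩
    obtain ⟨x', hx', rfl⟩ := hx
    obtain ⟨y', hy', rfl⟩ := hy
    apply Subtype.ext
    have h1 := hc.is_comm.comm (⟨x', hx'⟩ : ↥A) ⟨y', hy'⟩
    have h2 := congrArg (fun t : ↥A => ((t : ↥H) : S)) h1
    simpa using h2
  · rintro a ⟨a', ha', rfl⟩
    have := he a' ha'
    rw [← map_pow, this, map_one]

theorem pkgTrans : PkgTrans.{u} := by
  intro S _ H X hX
  have hinj : Function.Injective H.subtype := Subgroup.subtype_injective H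
  have hcard : ∀ Y : Subgroup ↥H, Nat.card ↥(Y.map H.subtype) = Nat.card ↥Y := fun Y =>
    Subgroup.card_map_of_injective hinj
  rcases hX with ⟨hea, h4⟩ | ⟨hex, h32, A, hAX, hAea, hA8⟩
  · left
    exact ⟨elemAb_map H X hea, by rw [hcard, h4]⟩
  · right
    have hfin : Finite ↥(X.map H.subtype) := by
      apply Nat.finite_of_card_ne_zero
      rw [hcard, h32]
      norm_num
    haveI : Fact (Nat.Prime 2) := ⟨Nat.prime_two⟩
    refine ⟨?_, by rw [hcard, h32], A.map H.subtype, Subgroup.map_mono hAX, elemAb_map H A hAea,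
      by rw [hcard, hA8]⟩
    exact Cfsg.Agent.Lib.Helper6.TG.isExtraspecial_congr (X.equivMapOfInjective H.subtype hinj) hex

end Cfsg.Agent.Lib.Helper20.S4415
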